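import Cfsg.Agent.Graphs.SRG100
import Cfsg.Agent.Design.GroupsLarge
import Cfsg.Agent.Sharply.SimpleCrit

/-!
Automorphisms of the point-block graph of an S(3,6,22): order 88704000, and the even ones
form a simple group of order 44352000.
-/

set_option autoImplicit false

namespace Cfsg.Agent.Graphs

open Cfsg.Agent.Design MulAction

section data

/-- The permutation of the 77 blocks induced by `swap23`. -/
def swapBlock : Equiv.Perm (Fin 77) :=
  swaps [(5,21),(6,20),(7,22),(8,30),(9,28),(10,29),(11,37),(12,36),(13,41),(14,42),(15,40),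
    (16,49),(17,48),(18,53),(19,52),(25,31),(26,43),(27,54),(34,44),(35,50),(39,45),(60,64),
    (61,68),(62,72),(63,76),(66,69),(67,73),(71,74)]

/-- The images of the blocks under `swapBlock`. -/
def swapTable : List ℕ :=
  [0,1,2,3,4,21,20,22,30,28,29,37,36,41,42,40,49,48,53,52,6,5,7,23,24,31,43,54,9,10,8,25,32,33,
    44,50,12,11,38,45,15,13,14,26,34,39,46,47,17,16,35,51,19,18,27,55,56,57,58,59,64,68,72,76,60,
    65,69,73,61,66,70,74,62,67,71,75,63]

theorem swapBlock_table : (List.range 77).all (fun i =>
    Nat.beq (swapBlock (Fin.ofNat 77 i) : ℕ) (swapTable.getD i 0)) = true := by decide +kernel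

theorem swapTable_check : (List.range 77).all (fun i => Nat.beq
    (mapMask (List.ofFn fun j => (swap23 j : ℕ)) (Data.list22.getD i 0))
    (Data.list22.getD (swapTable.getD i 0) 0)) = true := by decide +kernel

theorem swapBlock_spec (i : Fin 77) :
    mapMask (List.ofFn fun j => (swap23 j : ℕ)) (Data.list22.getD i 0) =
      Data.list22.getD (swapBlock i) 0 := by
  have h1 := Nat.eq_of_beq_eq_true
    (List.all_eq_true.mp swapBlock_table i (List.mem_range.mpr i.2))
  have h2 := Nat.eq_of_beq_eq_true
    (List.all_eq_true.mp swapTable_check i (List.mem_range.mpr i.2))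
  rw [show Fin.ofNat 77 (i : ℕ) = i from Fin.ext (Nat.mod_eq_of_lt i.2)] at h1
  rw [h1, h2]

theorem swapBlock_zero : swapBlock 0 = 0 := by
  have h1 := Nat.eq_of_beq_eq_true
    (List.all_eq_true.mp swapBlock_table 0 (List.mem_range.mpr (by omega)))
  exact Fin.ext h1

theorem sign_swapBlock : Equiv.Perm.sign swapBlock = 1 := by
  rw [swapBlock, sign_swaps _ (by simp)]
  rfl

theorem sign_swap23 : Equiv.Perm.sign swap23 = -1 := by
  rw [swap23, sign_swaps _ (by decide +kernel)]
  rfl

end data

variable {α : Type*} [DecidableEq α] {B : Set (Finset α)}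

/-- The action of a design automorphism on the blocks. -/
def blockPart (g : Cfsg.setSystemAut B) : Equiv.Perm B where
  toFun b := ⟨(b : Finset α).map g.1.toEmbedding, (mem_aut.mp g.2 _).mpr b.2⟩
  invFun c := ⟨(c : Finset α).map g.1.symm.toEmbedding, by
    rw [← mem_aut.mp g.2, Finset.map_map]
    simp⟩
  left_inv b := Subtype.ext (by simp [Finset.map_map])
  right_inv c := Subtype.ext (by simp [Finset.map_map])

omit [DecidableEq α] in
theorem inr_ext {b c : B} (h : (b : Finset α) = c) :
    (some (Sum.inr b) : Option (α ⊕ B)) = some (Sum.inr c) := by rw [Subtype.ext h]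

/-- The graph automorphism induced by a design automorphism. -/
def lift : Cfsg.setSystemAut B →* (Cfsg.pointBlockGraph B ≃g Cfsg.pointBlockGraph B) where
  toFun g := pointBlockIso g.1 (mem_aut.mp g.2)
  map_one' := by
    refine RelIso.ext fun v => ?_
    rcases v with - | (a | b)
    · rfl
    · rfl
    · refine inr_ext ?_
      show (b : Finset α).map _ = _
      rw [Finset.map_eq_image]
      exact Finset.image_id
  map_mul' g h := by
    refine RelIso.ext fun v => ?_
    rcases v with - | (a | b)
    · rfl
    · rfl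
    · refine inr_ext ?_
      show (b : Finset α).map _ = ((b : Finset α).map _).map _
      rw [Finset.map_map]
      rfl

theorem lift_toEquiv (g : Cfsg.setSystemAut B) :
    (lift g).toEquiv = Equiv.optionCongr (Equiv.sumCongr g.1 (blockPart g)) := rfl

theorem lift_none (g : Cfsg.setSystemAut B) : lift g none = none := rfl

theorem lift_inl (g : Cfsg.setSystemAut B) (a : α) :
    lift g (some (Sum.inl a)) = some (Sum.inl (g.1 a)) := rfl

theorem lift_inr (g : Cfsg.setSystemAut B) (b : B) :
    lift g (some (Sum.inr b)) = some (Sum.inr (blockPart g b)) := rfl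

theorem lift_injective : Function.Injective (lift (B := B)) := by
  intro g h e
  apply Subtype.ext
  ext a
  have h1 := congrArg (fun φ : Cfsg.pointBlockGraph B ≃g Cfsg.pointBlockGraph B =>
    φ (some (Sum.inl a))) e
  simp only [lift_inl, Option.some.injEq, Sum.inl.injEq] at h1
  exact h1

omit [DecidableEq α] in
theorem adj_none {x : Option (α ⊕ B)} :
    (Cfsg.pointBlockGraph B).Adj none x ↔ ∃ a, x = some (Sum.inl a) := by
  rcases x with - | (a | b) <;> simp [Cfsg.pointBlockGraph, Cfsg.pointBlockRel]

omit [DecidableEq α] in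
theorem adj_point_block {a : α} {b : B} :
    (Cfsg.pointBlockGraph B).Adj (some (Sum.inl a)) (some (Sum.inr b)) ↔ a ∈ (b : Finset α) := by
  simp [Cfsg.pointBlockGraph, Cfsg.pointBlockRel]

variable [Fintype α]

/-- An automorphism fixing the extra vertex comes from the design. -/
theorem exists_lift {φ : Cfsg.pointBlockGraph B ≃g Cfsg.pointBlockGraph B} (h0 : φ none = none) :
    ∃ g, lift g = φ := by
  classical
  have hpt : ∀ a, ∃ a', φ (some (Sum.inl a)) = some (Sum.inl a') := fun a => by
    rw [← adj_none, ← h0, φ.map_rel_iff]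
    exact adj_none.mpr ⟨a, rfl⟩
  choose σ hσ using hpt
  have hσi : Function.Injective σ := fun a a' e => by
    have : φ (some (Sum.inl a)) = φ (some (Sum.inl a')) := by rw [hσ, hσ, e]
    simpa using φ.injective this
  let e : Equiv.Perm α := Equiv.ofBijective σ (Finite.injective_iff_bijective.mp hσi)
  have hblk : ∀ b : B, ∃ c : B, φ (some (Sum.inr b)) = some (Sum.inr c) ∧
      (c : Finset α) = (b : Finset α).map e.toEmbedding := by
    intro b
    rcases hx : φ (some (Sum.inr b)) with - | (a | c)
    · rw [← h0] at hx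
      simpa using φ.injective hx
    · obtain ⟨a', ha'⟩ := e.surjective a
      rw [← ha'] at hx
      have : φ (some (Sum.inr b)) = φ (some (Sum.inl a')) := by rw [hx, hσ]; rfl
      simpa using φ.injective this
    · refine ⟨c, rfl, ?_⟩
      ext y
      obtain ⟨a, rfl⟩ := e.surjective y
      rw [Finset.mem_map_equiv, Equiv.symm_apply_apply, ← adj_point_block, ← adj_point_block, ← hx,
        show e a = σ a from rfl, ← hσ, φ.map_rel_iff]
  have hmem : e ∈ Cfsg.setSystemAut B := by
    rw [mem_aut]
    refine fun s => ⟨fun hs => ?_, fun hs => ?_⟩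
    · obtain ⟨x, hx⟩ := φ.surjective (some (Sum.inr ⟨_, hs⟩))
      rcases x with - | (a | b)
      · simp [h0] at hx
      · simp [hσ] at hx
      · obtain ⟨c, hc, hcs⟩ := hblk b
        rw [hc, Option.some.injEq, Sum.inr.injEq] at hx
        rw [hx] at hcs
        rw [Finset.map_injective _ hcs]
        exact b.2
    · obtain ⟨c, -, hcs⟩ := hblk ⟨s, hs⟩
      rw [← hcs]
      exact c.2
  refine ⟨⟨e, hmem⟩, RelIso.ext fun v => ?_⟩
  rcases v with - | (a | b)
  · rw [lift_none, h0]
  · rw [lift_inl, hσ]
    rfl
  · obtain ⟨c, hc, hcs⟩ := hblk b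
    rw [lift_inr, hc]
    exact inr_ext hcs.symm

variable (hB : Cfsg.IsSteinerSystem 3 6 B) (hv : Fintype.card α = 22)
include hB hv

/-- The automorphism group is transitive. -/
theorem exists_aut_none (v : Option (α ⊕ B)) :
    ∃ φ : Cfsg.pointBlockGraph B ≃g Cfsg.pointBlockGraph B, φ none = v := by
  classical
  have : Fintype B := Fintype.ofFinite B
  obtain ⟨h1, h2, ψ, hψ⟩ := reconstruct (pointBlockGraph_srg hB hv) v
  obtain ⟨χ, hχ⟩ := exists_pointBlockIso hB hv h1 h2
  exact ⟨χ.trans ψ, show ψ (χ none) = v by rw [hχ, hψ]⟩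

/-- An enumeration of the blocks by the standard list. -/
theorem exists_enum : ∃ (e : Fin 22 ≃ α) (eB : Fin 77 ≃ B), IsIso Data.list22 B e ∧
    ∀ i, (eB i : Finset α) = (bits 22 (Data.list22.getD i 0)).map e.toEmbedding := by
  obtain ⟨e, he⟩ := exists_iso22 hB hv
  have hget : ∀ i : Fin 77, Data.list22.getD i 0 ∈ Data.list22 := fun i => by
    rw [List.getD_eq_getElem _ _ (by rw [length_list22]; exact i.2)]
    exact List.getElem_mem _
  have hb : ∀ i : Fin 77, Data.list22.getD i 0 < 2 ^ 22 := fun i =>
    of_decide_eq_true (List.all_eq_true.mp bound_list22 _ (hget i))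
  let f : Fin 77 → B := fun i =>
    ⟨(bits 22 (Data.list22.getD i 0)).map e.toEmbedding, (he _).mpr (by rw [mask_bits (hb i)]; exact hget i)⟩
  have hf : Function.Bijective f := by
    refine ⟨fun i j h => ?_, fun b => ?_⟩
    · have h1 := bits_inj (hb i) (hb j) (Finset.map_injective _ (congrArg Subtype.val h))
      rw [List.getD_eq_getElem _ _ (by rw [length_list22]; exact i.2),
        List.getD_eq_getElem _ _ (by rw [length_list22]; exact j.2)] at h1
      exact Fin.ext ((nodup_list22.getElem_inj_iff).mp h1)
    · obtain ⟨k, hk, hk'⟩ := List.getElem_of_mem (he.mask_pull_mem b.2)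
      refine ⟨⟨k, by rw [length_list22] at hk; exact hk⟩, Subtype.ext ?_⟩
      show (bits 22 (Data.list22.getD k 0)).map e.toEmbedding = b.1
      rw [List.getD_eq_getElem _ _ hk, hk', bits_mask, map_pull]
  exact ⟨e, Equiv.ofBijective f hf, he, fun i => rfl⟩

theorem card_B : Nat.card B = 77 := by
  obtain ⟨e, eB, -, -⟩ := exists_enum hB hv
  rw [← Nat.card_congr eB, Nat.card_fin]

theorem card_vertices : Nat.card (Option (α ⊕ B)) = 100 := by
  rw [Finite.card_option, Nat.card_sum, card_B hB hv, Nat.card_eq_fintype_card, hv]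

/-- An odd design automorphism fixing a block and inducing an even permutation of the blocks. -/
theorem exists_swap [Fintype B] : ∃ g : Cfsg.setSystemAut B, ∃ b : B,
    Equiv.Perm.sign g.1 = -1 ∧ Equiv.Perm.sign (blockPart g) = 1 ∧ blockPart g b = b := by
  obtain ⟨e, eB, he, heB⟩ := exists_enum hB hv
  have h := he.relabel swap23_list22
    (fun m hm => of_decide_eq_true (List.all_eq_true.mp bound_list22 m hm)) nodup_list22
  let g : Cfsg.setSystemAut B := ⟨_, aut_of_isIso he h⟩
  have hg : blockPart g = (eB.symm.trans swapBlock).trans eB := by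
    ext b : 1
    obtain ⟨i, rfl⟩ := eB.surjective b
    apply Subtype.ext
    show (eB i : Finset α).map _ = _
    simp only [Equiv.trans_apply, Equiv.symm_apply_apply, heB, Finset.map_map]
    have h2 : bits 22 (Data.list22.getD (swapBlock i) 0) =
        (bits 22 (Data.list22.getD i 0)).map swap23.toEmbedding := by
      rw [← swapBlock_spec, ← bits_mask ((bits 22 (Data.list22.getD i 0)).map swap23.toEmbedding),
        mask_map, mask_bits]
      refine of_decide_eq_true (List.all_eq_true.mp bound_list22 _ ?_)
      rw [List.getD_eq_getElem _ _ (by rw [length_list22]; exact i.2)]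
      exact List.getElem_mem _
    rw [h2, Finset.map_map]
    congr 1
    ext x
    show (e.symm.trans (swap23.trans e)) (e x) = e (swap23 x)
    simp
  refine ⟨g, eB 0, ?_, ?_, ?_⟩
  · show Equiv.Perm.sign (e.symm.trans (swap23.trans e)) = -1
    rw [← Equiv.trans_assoc, Equiv.Perm.sign_symm_trans_trans, sign_swap23]
  · rw [hg, Equiv.Perm.sign_symm_trans_trans, sign_swapBlock]
  · rw [hg]; simp [swapBlock_zero]

theorem card_aut_graph : Nat.card (Cfsg.pointBlockGraph B ≃g Cfsg.pointBlockGraph B) = 88704000 := by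
  classical
  have : Finite (Cfsg.pointBlockGraph B ≃g Cfsg.pointBlockGraph B) :=
    Finite.of_injective (fun φ => (φ : Option (α ⊕ B) → Option (α ⊕ B))) DFunLike.coe_injective
  have htr : IsPretransitive (Cfsg.pointBlockGraph B ≃g Cfsg.pointBlockGraph B) (Option (α ⊕ B)) :=
    (isPretransitive_iff_base none).mpr fun v => exists_aut_none hB hv v
  have hst : stabilizer (Cfsg.pointBlockGraph B ≃g Cfsg.pointBlockGraph B) (none : Option (α ⊕ B)) =
      (lift (B := B)).range := by
    ext φ
    refine ⟨fun h => exists_lift h, ?_⟩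
    rintro ⟨g, rfl⟩
    exact lift_none g
  rw [← Subgroup.card_mul_index
      (stabilizer (Cfsg.pointBlockGraph B ≃g Cfsg.pointBlockGraph B) (none : Option (α ⊕ B))),
    index_stabilizer_of_transitive, card_vertices hB hv, hst,
    ← Nat.card_congr (MonoidHom.ofInjective lift_injective).toEquiv, card_aut22 hB hv]

/-- A simple group of order 44352000 inside the automorphism group. -/
theorem exists_hs :
    ∃ H : Subgroup (Cfsg.pointBlockGraph B ≃g Cfsg.pointBlockGraph B),
      IsSimpleGroup H ∧ Nat.card H = 44352000 := by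
  classical
  have : Fintype B := Fintype.ofFinite B
  let A := Cfsg.pointBlockGraph B ≃g Cfsg.pointBlockGraph B
  have hfin : Finite A :=
    Finite.of_injective (fun φ : A => (φ : Option (α ⊕ B) → Option (α ⊕ B))) DFunLike.coe_injective
  let χ : A →* ℤˣ := Equiv.Perm.sign.comp (MulAction.toPermHom A (Option (α ⊕ B)))
  have hχ : ∀ g, χ (lift g) = Equiv.Perm.sign g.1 * Equiv.Perm.sign (blockPart g) := by
    intro g
    have : MulAction.toPermHom A (Option (α ⊕ B)) (lift g) =
        Equiv.optionCongr (Equiv.sumCongr g.1 (blockPart g)) := by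
      rw [← lift_toEquiv]
      exact Equiv.ext fun v => rfl
    show Equiv.Perm.sign (MulAction.toPermHom A (Option (α ⊕ B)) (lift g)) = _
    rw [this, Equiv.optionCongr_sign, Equiv.Perm.sign_sumCongr]
  obtain ⟨g₀, b₀, hg₀, hg₀', hb₀⟩ := exists_swap hB hv
  have hodd : χ (lift g₀) = -1 := by rw [hχ, hg₀, hg₀', mul_one]
  have hindex : χ.ker.index = 2 := index_ker_sign χ ⟨lift g₀, hodd⟩
  have hcard : Nat.card χ.ker = 44352000 := by
    have h1 := Subgroup.card_mul_index χ.ker
    rw [hindex, card_aut_graph hB hv] at h1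
    omega
  refine ⟨χ.ker, ?_, hcard⟩
  -- the design automorphisms inside the kernel are the even ones
  have hK : (χ.comp lift).ker = evenAut B := by
    have hs := simple_evenAut hB hv
    have hi : (χ.comp lift).ker.index = 2 := index_ker_sign _ ⟨g₀, hodd⟩
    have hle : evenAut B ≤ (χ.comp lift).ker := by
      rcases hs.eq_bot_or_eq_top_of_normal ((χ.comp lift).ker.subgroupOf (evenAut B))
        inferInstance with h | h
      · exfalso
        have h1 : ((χ.comp lift).ker.subgroupOf (evenAut B)).index ∣ 2 := by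
          rw [← hi]; exact Subgroup.relIndex_dvd_index_of_normal _ _
        rw [h, Subgroup.index_bot, card_evenAut hB hv] at h1
        have := Nat.le_of_dvd two_pos h1
        omega
      · exact Subgroup.subgroupOf_eq_top.mp h
    refine (Subgroup.eq_of_le_of_card_ge hle ?_).symm
    have h1 := Subgroup.card_mul_index (χ.comp lift).ker
    rw [hi, card_aut22 hB hv] at h1
    rw [card_evenAut hB hv]
    omega
  have hKmem : ∀ g : evenAut B, lift g.1 ∈ χ.ker := fun g => by
    rw [← Subgroup.mem_comap, MonoidHom.comap_ker, hK]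
    exact g.2
  have hstab : ∀ h : χ.ker, h • (none : Option (α ⊕ B)) = none →
      ∃ g : evenAut B, lift g.1 = h.1 := by
    intro h hh
    obtain ⟨g, hg⟩ := exists_lift (φ := h.1) hh
    refine ⟨⟨g, ?_⟩, hg⟩
    rw [← hK, MonoidHom.mem_ker, MonoidHom.comp_apply, hg]
    exact MonoidHom.mem_ker.mp h.2
  have htrans : ∀ v : Option (α ⊕ B), ∃ h : χ.ker, h • (none : Option (α ⊕ B)) = v := by
    intro v
    obtain ⟨φ, hφ⟩ := exists_aut_none hB hv v
    rcases Int.units_eq_one_or (χ φ) with h | h
    · exact ⟨⟨φ, h⟩, hφ⟩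
    · refine ⟨⟨φ * lift g₀, by rw [MonoidHom.mem_ker, map_mul, h, hodd]; rfl⟩, ?_⟩
      show φ (lift g₀ none) = v
      rw [lift_none, hφ]
  have hS : IsSimpleGroup (stabilizer χ.ker (none : Option (α ⊕ B))) := by
    let m : evenAut B →* stabilizer χ.ker (none : Option (α ⊕ B)) :=
      { toFun := fun g => ⟨⟨lift g.1, hKmem g⟩, lift_none g.1⟩
        map_one' := Subtype.ext (Subtype.ext (map_one lift))
        map_mul' := fun g h => Subtype.ext (Subtype.ext (map_mul lift g.1 h.1)) }
    have hm : Function.Bijective m := by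
      refine ⟨fun g h e => ?_, fun s => ?_⟩
      · exact Subtype.ext (lift_injective
          (congrArg (fun t : stabilizer χ.ker (none : Option (α ⊕ B)) => (t.1 : A)) e))
      · obtain ⟨g, hg⟩ := hstab s.1 s.2
        exact ⟨g, Subtype.ext (Subtype.ext hg)⟩
    have := simple_evenAut hB hv
    exact (MulEquiv.isSimpleGroup_congr (MulEquiv.ofBijective m hm)).mp this
  -- the three suborbits
  have hpts : ∀ a a' : α, ∃ g : evenAut B, g.1.1 a = a' := fun a a' =>
    (pretransitive_evenAut hB hv).exists_smul_eq a a'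
  have hblk : ∀ b : B, ∃ g : evenAut B, blockPart g.1 b₀ = b := by
    intro b
    have hc : ∀ c : B, (c : Finset α).card = 6 := fun c => hB.1 _ c.2
    obtain ⟨s, hs, hs3⟩ := Finset.exists_subset_card_eq (s := (b₀ : Finset α)) (n := 3) (by rw [hc]; omega)
    obtain ⟨s', hs', hs3'⟩ := Finset.exists_subset_card_eq (s := (b : Finset α)) (n := 3) (by rw [hc]; omega)
    let x : Fin 3 ↪ α := (Fintype.equivFinOfCardEq (by simpa using hs3)).symm.toEmbedding.trans
      (Function.Embedding.subtype (· ∈ s))
    let y : Fin 3 ↪ α := (Fintype.equivFinOfCardEq (by simpa using hs3')).symm.toEmbedding.trans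
      (Function.Embedding.subtype (· ∈ s'))
    obtain ⟨g, hg⟩ := (three_trans22 hB hv).exists_smul_eq x y
    have hgb : blockPart g b₀ = b := by
      apply Subtype.ext
      refine (hB.2 s' hs3').unique ⟨(blockPart g b₀).2, fun z hz => ?_⟩ ⟨b.2, hs'⟩
      let i := Fintype.equivFinOfCardEq (α := s') (by simpa using hs3') ⟨z, hz⟩
      have hyi : y i = z := by simp [y, i]
      have hxi : x i ∈ (b₀ : Finset α) := hs (by simp [x])
      rw [← hyi, ← hg]
      exact Finset.mem_map_of_mem g.1.toEmbedding hxi
    rcases Int.units_eq_one_or (χ (lift g)) with h | h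
    · exact ⟨⟨g, by rw [← hK]; exact h⟩, hgb⟩
    · have hmem : g * g₀ ∈ evenAut B := by
        rw [← hK, MonoidHom.mem_ker, MonoidHom.comp_apply, map_mul, map_mul, h, hodd]
        rfl
      refine ⟨⟨g * g₀, hmem⟩, ?_⟩
      have h2 : lift (g * g₀) (some (Sum.inr b₀)) = some (Sum.inr b) := by
        rw [map_mul]
        show lift g (lift g₀ (some (Sum.inr b₀))) = _
        rw [lift_inr, hb₀, lift_inr, hgb]
      rw [lift_inr, Option.some.injEq, Sum.inr.injEq] at h2
      exact h2
  have hnormal : ∀ N : Subgroup χ.ker, N.Normal → N ≠ ⊥ →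
      ∀ v : Option (α ⊕ B), ∃ n ∈ N, n • (none : Option (α ⊕ B)) = v := by
    intro N hN hNb
    let O : Set (Option (α ⊕ B)) := orbit N (none : Option (α ⊕ B))
    have hinv : ∀ g : evenAut B, ∀ v ∈ O, lift g.1 v ∈ O := by
      rintro g _ ⟨n, rfl⟩
      let h : χ.ker := ⟨lift g.1, hKmem g⟩
      refine ⟨⟨h * n.1 * h⁻¹, hN.conj_mem _ n.2 h⟩, ?_⟩
      show (h * n.1 * h⁻¹) • (none : Option (α ⊕ B)) = h • (n.1 • (none : Option (α ⊕ B)))
      have h0 : h • (none : Option (α ⊕ B)) = none := lift_none g.1
      rw [mul_smul, mul_smul, inv_smul_eq_iff.mpr h0.symm]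
    have hnone : none ∈ O := mem_orbit_self _
    have hex : ∃ v ∈ O, v ≠ none := by
      by_contra hall
      push Not at hall
      apply hNb
      rw [eq_bot_iff]
      intro n hn
      rw [Subgroup.mem_bot]
      refine Subtype.ext (DFunLike.ext _ _ fun v => ?_)
      obtain ⟨h, rfl⟩ := htrans v
      have h1 := hall _ ⟨⟨h⁻¹ * n * h⁻¹⁻¹, hN.conj_mem _ hn _⟩, rfl⟩
      show n • (h • (none : Option (α ⊕ B))) = h • none
      conv_rhs => rw [← h1]
      show n • h • (none : Option (α ⊕ B)) = h • (h⁻¹ * n * h⁻¹⁻¹) • none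
      rw [← mul_smul, ← mul_smul]
      show (n * h) • (none : Option (α ⊕ B)) = (h * (h⁻¹ * n * h⁻¹⁻¹)) • none
      congr 1
      group
    let P : Set (Option (α ⊕ B)) := Set.range fun a : α => some (Sum.inl a)
    let Q : Set (Option (α ⊕ B)) := Set.range fun b : B => some (Sum.inr b)
    have hP : (∃ a : α, some (Sum.inl a) ∈ O) → P ⊆ O := by
      rintro ⟨a, ha⟩ _ ⟨a', rfl⟩
      obtain ⟨g, hg⟩ := hpts a a'
      have := hinv g _ ha
      rwa [lift_inl, hg] at this
    have hQ : (∃ b : B, some (Sum.inr b) ∈ O) → Q ⊆ O := by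
      rintro ⟨b, hb⟩ _ ⟨b', rfl⟩
      obtain ⟨g, hg⟩ := hblk b
      obtain ⟨g', hg'⟩ := hblk b'
      have := hinv (g' * g⁻¹) _ hb
      have he : lift (g' * g⁻¹).1 (some (Sum.inr b)) = some (Sum.inr b') := by
        rw [← hg, ← hg', ← lift_inr, ← lift_inr]
        show lift (g' * g⁻¹).1 (lift g.1 _) = _
        show (lift (g' * g⁻¹).1 * lift g.1) (some (Sum.inr b₀)) = _
        rw [← map_mul, ← Subgroup.coe_mul, inv_mul_cancel_right]
      rwa [he] at this
    have hsize : O.ncard ∣ 44352000 := by
      rw [← hcard, ← Nat.card_coe_set_eq, Nat.card_congr (orbitEquivQuotientStabilizer N _)]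
      exact (Subgroup.card_quotient_dvd_card _).trans (Subgroup.card_subgroup_dvd_card N)
    have hPc : P.ncard = 22 := by
      rw [Set.ncard_range_of_injective (fun a a' h => by simpa using h), Nat.card_eq_fintype_card, hv]
    have hQc : Q.ncard = 77 := by
      rw [Set.ncard_range_of_injective (fun a a' h => by simpa using h), card_B hB hv]
    have hsplit : O.ncard = 1 + (if P ⊆ O then 22 else 0) + (if Q ⊆ O then 77 else 0) := by
      have hO : O = {none} ∪ (if P ⊆ O then P else ∅) ∪ (if Q ⊆ O then Q else ∅) := by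
        ext v
        rcases v with - | (a | b)
        · simp [hnone]
        · by_cases h : P ⊆ O
          · simp [h, h ⟨a, rfl⟩, P]
          · simp only [h, if_false, Set.union_empty]
            constructor
            · exact fun ha => absurd (hP ⟨a, ha⟩) h
            · split_ifs with h' <;> simp [Q]
        · by_cases h : Q ⊆ O
          · simp [h, h ⟨b, rfl⟩, Q]
          · simp only [h, if_false, Set.union_empty]
            constructor
            · exact fun hb => absurd (hQ ⟨b, hb⟩) h
            · split_ifs with h' <;> simp [P]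
      rw [hO, Set.ncard_union_eq _ (Set.toFinite _) (Set.toFinite _),
        Set.ncard_union_eq _ (Set.toFinite _) (Set.toFinite _), Set.ncard_singleton, ← hO]
      · split_ifs <;> simp [hPc, hQc]
      · split_ifs <;> simp [P]
      · split_ifs <;> simp [P, Q, Set.disjoint_left]
    have huniv : O = Set.univ := by
      apply Set.eq_of_subset_of_ncard_le (Set.subset_univ _)
      rw [Set.ncard_univ, card_vertices hB hv]
      obtain ⟨v, hvO, hvne⟩ := hex
      rcases v with - | (a | b)
      · exact absurd rfl hvne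
      · rw [if_pos (hP ⟨a, hvO⟩)] at hsplit
        split_ifs at hsplit
        · omega
        · rw [hsplit] at hsize; norm_num at hsize
      · rw [if_pos (hQ ⟨b, hvO⟩)] at hsplit
        split_ifs at hsplit
        · omega
        · rw [hsplit] at hsize; norm_num at hsize
    intro v
    obtain ⟨n, hn⟩ : v ∈ O := by rw [huniv]; trivial
    exact ⟨n.1, n.2, hn⟩
  have hnt : Nontrivial χ.ker := Finite.one_lt_card_iff_nontrivial.mp (by rw [hcard]; norm_num)
  refine IsSimpleGroup.mk fun N hN => or_iff_not_imp_left.mpr fun hNb => ?_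
  have hNt := hnormal N hN hNb
  have htrN : IsPretransitive N (Option (α ⊕ B)) := (isPretransitive_iff_base none).mpr fun v => by
    obtain ⟨n, hn, hnv⟩ := hNt v
    exact ⟨⟨n, hn⟩, hnv⟩
  rcases hS.eq_bot_or_eq_top_of_normal (N.subgroupOf (stabilizer χ.ker (none : Option (α ⊕ B))))
    inferInstance with h | h
  · exfalso
    rw [Subgroup.subgroupOf_eq_bot, disjoint_iff] at h
    have hN100 : Nat.card N = 100 := by
      have hb : stabilizer N (none : Option (α ⊕ B)) = ⊥ := by
        rw [eq_bot_iff]
        intro n hn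
        have : (n : χ.ker) ∈ N ⊓ stabilizer χ.ker (none : Option (α ⊕ B)) := ⟨n.2, hn⟩
        rw [h, Subgroup.mem_bot] at this
        rw [Subgroup.mem_bot]
        exact Subtype.ext this
      rw [← card_vertices hB hv, ← index_stabilizer_of_transitive N (none : Option (α ⊕ B)), hb,
        Subgroup.index_bot]
    have : Fact (Nat.Prime 5) := ⟨Nat.prime_five⟩
    obtain ⟨S⟩ : Nonempty (Sylow 5 N) := inferInstance
    have hS25 : Nat.card (S : Subgroup N) = 25 := by
      rw [S.card_eq_multiplicity, hN100]
      decide +kernel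
    have hone : Nat.card (Sylow 5 N) = 1 := by
      have h1 := card_sylow_modEq_one 5 N
      have h2 := S.card_dvd_index
      have h3 : (S : Subgroup N).index = 4 := by
        have := Subgroup.card_mul_index (S : Subgroup N)
        rw [hS25, hN100] at this
        omega
      rw [h3] at h2
      have := Nat.le_of_dvd (by norm_num) h2
      unfold Nat.ModEq at h1
      omega
    have : Subsingleton (Sylow 5 N) := (Nat.card_eq_one_iff_unique.mp hone).1
    have hchar : (S : Subgroup N).Characteristic := S.characteristic_of_subsingleton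
    have hK' : ((S : Subgroup N).map N.subtype).Normal := inferInstance
    have hKcard : Nat.card ((S : Subgroup N).map N.subtype) = 25 := by
      rw [Subgroup.card_map_of_injective N.subtype_injective, hS25]
    have hKb : (S : Subgroup N).map N.subtype ≠ ⊥ := by
      intro e
      rw [e, Subgroup.card_bot] at hKcard
      omega
    have h100 : Nat.card (Option (α ⊕ B)) ≤ 25 := by
      rw [← hKcard]
      refine Nat.card_le_card_of_surjective
        (fun n : (S : Subgroup N).map N.subtype => n.1 • (none : Option (α ⊕ B))) fun v => ?_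
      obtain ⟨n, hn, hnv⟩ := hnormal _ hK' hKb v
      exact ⟨⟨n, hn⟩, hnv⟩
    rw [card_vertices hB hv] at h100
    omega
  · rw [eq_top_iff]
    intro x _
    obtain ⟨n, hn, hnv⟩ := hNt (x • (none : Option (α ⊕ B)))
    have h1 : n⁻¹ * x ∈ stabilizer χ.ker (none : Option (α ⊕ B)) := by
      rw [mem_stabilizer_iff, mul_smul, inv_smul_eq_iff]
      exact hnv.symm
    have := N.mul_mem hn (Subgroup.subgroupOf_eq_top.mp h h1)
    rwa [mul_inv_cancel_left] at this

end Cfsg.Agent.Graphs
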