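import Cfsg.Agent.Design.Basic

/-!
The block graph and the point-block graph of an S(3,6,22).
-/

set_option autoImplicit false

namespace Cfsg.Agent.Graphs

open Cfsg.Agent.SteinerCount Cfsg.Agent.Design

variable {α : Type*} [Fintype α] [DecidableEq α] {B : Set (Finset α)}

/-- The blocks disjoint from `c`. -/
noncomputable def disjFrom (B : Set (Finset α)) (c : Finset α) : Finset (Finset α) :=
  (blocks B).filter fun e => Disjoint e c

theorem mem_disjFrom {c e : Finset α} : e ∈ disjFrom B c ↔ e ∈ B ∧ Disjoint e c := by
  rw [disjFrom, Finset.mem_filter, mem_blocks]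

section

variable (hB : Cfsg.IsSteinerSystem 3 6 B) (hv : Fintype.card α = 22)
include hB hv

theorem card_through_point (x : α) : ((blocks B).filter fun e => x ∈ e).card = 21 := by
  have := card_through (N := 21) hB hv {x} (Finset.card_singleton x) (by norm_num) (by decide)
    (by decide)
  simpa [through] using this

theorem card_through_pair {x y : α} (h : x ≠ y) :
    ((blocks B).filter fun e => x ∈ e ∧ y ∈ e).card = 5 := by
  have := card_through (N := 5) hB hv {x, y} (Finset.card_pair h) (by norm_num) (by decide)
    (by decide)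
  simpa [through, Finset.insert_subset_iff] using this

omit hv in
theorem ne_of_disjoint {b c : Finset α} (hb : b ∈ B) (h : Disjoint b c) : b ≠ c := by
  intro e
  subst e
  rw [disjoint_self, Finset.bot_eq_empty] at h
  have := hB.1 b hb
  rw [h, Finset.card_empty] at this
  omega

theorem card_disjFrom {c : Finset α} (hc : c ∈ B) : (disjFrom B c).card = 16 := by
  have hN := card_blocks (N := 77) hB hv (by decide) (by decide)
  have h1 := sum_choose_inter_erase (N := 21) hB hv hc (i := 1) (by norm_num) (by decide) (by decide)
  norm_num [Nat.choose_one_right] at h1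
  have hval : ∀ e ∈ (blocks B).erase c, (e ∩ c).card = if Disjoint e c then 0 else 2 := by
    intro e he
    rw [Finset.mem_erase, mem_blocks] at he
    split_ifs with hd
    · rw [Finset.disjoint_iff_inter_eq_empty.mp hd, Finset.card_empty]
    · rcases inter_3_6_22 hB hv he.2 hc he.1 with h | h
      · exact absurd (Finset.disjoint_iff_inter_eq_empty.mpr (Finset.card_eq_zero.mp h)) hd
      · exact h
  rw [Finset.sum_congr rfl hval, Finset.sum_ite, Finset.sum_const, Finset.sum_const, smul_eq_mul,
    smul_eq_mul, mul_zero, zero_add] at h1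
  have h2 := Finset.card_filter_add_card_filter_not (s := (blocks B).erase c) (fun e => Disjoint e c)
  rw [Finset.card_erase_of_mem (mem_blocks.mpr hc), ← ncard_eq, hN] at h2
  have h3 : disjFrom B c = ((blocks B).erase c).filter fun e => Disjoint e c := by
    ext e
    simp only [mem_disjFrom, Finset.mem_filter, Finset.mem_erase, mem_blocks]
    exact ⟨fun h => ⟨⟨ne_of_disjoint hB h.1 h.2, h.1⟩, h.2⟩, fun h => ⟨h.1.2, h.2⟩⟩
  rw [h3]
  omega

/-- Six blocks through a point avoid a given block not containing it. -/
theorem card_through_disjFrom {c : Finset α} (hc : c ∈ B) {x : α} (hx : x ∉ c) :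
    ((disjFrom B c).filter fun e => x ∈ e).card = 6 := by
  have h1 := Finset.sum_card_bipartiteAbove_eq_sum_card_bipartiteBelow
    (s := (blocks B).filter fun e => x ∈ e) (t := c) (fun e y => y ∈ e)
  simp only [Finset.bipartiteAbove, Finset.bipartiteBelow] at h1
  have hr : ∀ y ∈ c, (((blocks B).filter fun e => x ∈ e).filter fun e => y ∈ e).card = 5 := by
    intro y hy
    rw [Finset.filter_filter]
    exact card_through_pair hB hv fun e => hx (e ▸ hy)
  rw [Finset.sum_congr rfl hr, Finset.sum_const, hB.1 c hc, smul_eq_mul] at h1
  have hl : ∀ e ∈ (blocks B).filter fun e => x ∈ e,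
      (c.filter fun y => y ∈ e).card = if Disjoint e c then 0 else 2 := by
    intro e he
    rw [Finset.mem_filter, mem_blocks] at he
    rw [Finset.filter_mem_eq_inter, Finset.inter_comm]
    have hne : e ≠ c := fun h => hx (h ▸ he.2)
    split_ifs with hd
    · rw [Finset.disjoint_iff_inter_eq_empty.mp hd, Finset.card_empty]
    · rcases inter_3_6_22 hB hv he.1 hc hne with h | h
      · exact absurd (Finset.disjoint_iff_inter_eq_empty.mpr (Finset.card_eq_zero.mp h)) hd
      · exact h
  rw [Finset.sum_congr rfl hl, Finset.sum_ite, Finset.sum_const, Finset.sum_const, smul_eq_mul,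
    smul_eq_mul, mul_zero, zero_add] at h1
  have h2 := Finset.card_filter_add_card_filter_not (s := (blocks B).filter fun e => x ∈ e)
    (fun e => Disjoint e c)
  rw [card_through_point hB hv] at h2
  have h3 : (disjFrom B c).filter (fun e => x ∈ e) =
      ((blocks B).filter fun e => x ∈ e).filter fun e => Disjoint e c := by
    rw [disjFrom, Finset.filter_comm]
  rw [h3]
  omega

theorem sum_inter_disjFrom {c : Finset α} (hc : c ∈ B) (d : Finset α) :
    ∑ e ∈ disjFrom B c, (e ∩ d).card = 6 * (d \ c).card := by
  have h1 := Finset.sum_card_bipartiteAbove_eq_sum_card_bipartiteBelow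
    (s := disjFrom B c) (t := d) (fun e y => y ∈ e)
  simp only [Finset.bipartiteAbove, Finset.bipartiteBelow] at h1
  have hl : ∀ e ∈ disjFrom B c, (d.filter fun y => y ∈ e).card = (e ∩ d).card := fun e _ => by
    rw [Finset.filter_mem_eq_inter, Finset.inter_comm]
  have hr : ∀ y ∈ d, ((disjFrom B c).filter fun e => y ∈ e).card = if y ∈ c then 0 else 6 := by
    intro y _
    split_ifs with hy
    · rw [Finset.card_eq_zero, Finset.filter_eq_empty_iff]
      intro e he hye
      exact Finset.disjoint_left.mp (mem_disjFrom.mp he).2 hye hy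
    · exact card_through_disjFrom hB hv hc hy
  rw [Finset.sum_congr rfl hl, Finset.sum_congr rfl hr, Finset.sum_ite, Finset.sum_const,
    Finset.sum_const, smul_eq_mul, smul_eq_mul, mul_zero, zero_add] at h1
  rw [h1, mul_comm, Finset.sdiff_eq_filter]

/-- Blocks disjoint from two given blocks. -/
theorem card_common {c d : Finset α} (hc : c ∈ B) (hd : d ∈ B) (hcd : c ≠ d) :
    ((disjFrom B c) ∩ (disjFrom B d)).card = if Disjoint c d then 0 else 4 := by
  have hs := sum_inter_disjFrom hB hv hc d
  have h16 := card_disjFrom hB hv hc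
  have hcom : (disjFrom B c) ∩ (disjFrom B d) = (disjFrom B c).filter fun e => Disjoint e d := by
    ext e
    simp only [Finset.mem_inter, Finset.mem_filter, mem_disjFrom]
    tauto
  rw [hcom]
  have hval : ∀ e ∈ disjFrom B c, (e ∩ d).card =
      if e = d then 6 else if Disjoint e d then 0 else 2 := by
    intro e he
    rw [mem_disjFrom] at he
    split_ifs with h h'
    · rw [h, Finset.inter_self, hB.1 d hd]
    · rw [Finset.disjoint_iff_inter_eq_empty.mp h', Finset.card_empty]
    · rcases inter_3_6_22 hB hv he.1 hd h with hh | hh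
      · exact absurd (Finset.disjoint_iff_inter_eq_empty.mpr (Finset.card_eq_zero.mp hh)) h'
      · exact hh
  rw [Finset.sum_congr rfl hval] at hs
  have hnd : ¬ Disjoint d d := fun h => ne_of_disjoint hB hd h rfl
  split_ifs with hcd'
  · have hdmem : d ∈ disjFrom B c := mem_disjFrom.mpr ⟨hd, hcd'.symm⟩
    rw [← Finset.add_sum_erase _ _ hdmem, if_pos rfl, Finset.sdiff_eq_self_of_disjoint hcd'.symm,
      hB.1 d hd, Finset.sum_congr rfl (g := fun e => if Disjoint e d then 0 else 2)
        (fun e he => if_neg (Finset.ne_of_mem_erase he)), Finset.sum_ite, Finset.sum_const,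
      Finset.sum_const, smul_eq_mul, smul_eq_mul, mul_zero, zero_add] at hs
    have h2 := Finset.card_filter_add_card_filter_not (s := (disjFrom B c).erase d)
      (fun e => Disjoint e d)
    rw [Finset.card_erase_of_mem hdmem, h16] at h2
    have h3 : ((disjFrom B c).erase d).filter (fun e => Disjoint e d) =
        (disjFrom B c).filter fun e => Disjoint e d := by
      rw [Finset.filter_erase, Finset.erase_eq_of_notMem]
      intro h
      exact hnd (Finset.mem_filter.mp h).2
    rw [h3] at h2
    omega
  · have hdmem : d ∉ disjFrom B c := fun h => hcd' (mem_disjFrom.mp h).2.symm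
    have h2 : (d ∩ c).card = 2 := by
      rcases inter_3_6_22 hB hv hd hc hcd.symm with h | h
      · exact absurd (Finset.disjoint_iff_inter_eq_empty.mpr (Finset.card_eq_zero.mp h)).symm hcd'
      · exact h
    have h4 : (d \ c).card = 4 := by
      rw [Finset.card_sdiff, Finset.inter_comm, h2, hB.1 d hd]
    rw [Finset.sum_congr rfl (g := fun e => if Disjoint e d then 0 else 2)
      (fun e he => if_neg (by rintro rfl; exact hdmem he)), Finset.sum_ite, Finset.sum_const,
      Finset.sum_const, smul_eq_mul, smul_eq_mul, mul_zero, zero_add, h4] at hs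
    have h3 := Finset.card_filter_add_card_filter_not (s := disjFrom B c) (fun e => Disjoint e d)
    omega

/-- Blocks through a point avoiding a block. -/
theorem card_point_block {c : Finset α} (hc : c ∈ B) (x : α) :
    (((blocks B).filter fun e => x ∈ e) ∩ disjFrom B c).card = if x ∈ c then 0 else 6 := by
  split_ifs with hx
  · rw [Finset.card_eq_zero, Finset.eq_empty_iff_forall_notMem]
    intro e he
    rw [Finset.mem_inter, Finset.mem_filter] at he
    exact Finset.disjoint_left.mp (mem_disjFrom.mp he.2).2 he.1.2 hx
  · rw [← card_through_disjFrom hB hv hc hx]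
    congr 1
    ext e
    simp only [Finset.mem_inter, Finset.mem_filter, mem_disjFrom, mem_blocks]
    tauto

end

theorem card_subtype_filter [Fintype B] (p : Finset α → Prop) [DecidablePred p] :
    ((Finset.univ : Finset B).filter fun b : B => p (b : Finset α)).card = ((blocks B).filter p).card := by
  refine Finset.card_bij (fun b _ => b.1) ?_ ?_ ?_
  · intro b hb
    simp only [Finset.mem_filter, Finset.mem_univ, true_and] at hb
    exact Finset.mem_filter.mpr ⟨mem_blocks.mpr b.2, hb⟩
  · intro a _ b _ h
    exact Subtype.ext h
  · intro e he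
    rw [Finset.mem_filter, mem_blocks] at he
    exact ⟨⟨e, he.1⟩, by simp [he.2], rfl⟩

omit [Fintype α] [DecidableEq α] in
theorem blockGraph_adj {k : ℕ} (hk : 0 < k) (hB : ∀ b ∈ B, b.card = k) (b c : B) :
    (Cfsg.blockGraph B).Adj b c ↔ Disjoint (b : Finset α) c := by
  rw [Cfsg.blockGraph, SimpleGraph.fromRel_adj]
  constructor
  · rintro ⟨-, h | h⟩
    exacts [h, h.symm]
  · intro h
    refine ⟨?_, Or.inl h⟩
    intro e
    subst e
    rw [disjoint_self, Finset.bot_eq_empty] at h
    have := hB _ b.2
    rw [h, Finset.card_empty] at this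
    omega

/-- The block graph of an S(3,6,22) is strongly regular. -/
theorem blockGraph_srg (hB : Cfsg.IsSteinerSystem 3 6 B) (hv : Fintype.card α = 22) [Fintype B]
    [DecidableRel (Cfsg.blockGraph B).Adj] : (Cfsg.blockGraph B).IsSRGWith 77 16 0 4 := by
  have hN := card_blocks (N := 77) hB hv (by decide) (by decide)
  have hadj := blockGraph_adj (B := B) (by norm_num) hB.1
  have hcommon : ∀ b c : B, b ≠ c →
      Fintype.card ((Cfsg.blockGraph B).commonNeighbors b c) =
        if Disjoint (b : Finset α) c then 0 else 4 := by
    intro b c hbc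
    rw [← card_common hB hv b.2 c.2 (fun h => hbc (Subtype.ext h))]
    rw [Fintype.card_subtype, show (disjFrom B b.1 ∩ disjFrom B c.1) =
        (blocks B).filter (fun e => Disjoint e b.1 ∧ Disjoint e c.1) from by
      ext e; simp only [Finset.mem_inter, mem_disjFrom, Finset.mem_filter, mem_blocks]; tauto,
      ← card_subtype_filter (B := B) (fun e => Disjoint e b.1 ∧ Disjoint e c.1)]
    refine congrArg Finset.card ?_
    ext x
    simp only [Finset.mem_filter, Finset.mem_univ, true_and, SimpleGraph.mem_commonNeighbors, hadj,
      disjoint_comm]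
  refine ⟨?_, ?_, ?_, ?_⟩
  · rw [← Nat.card_eq_fintype_card, Nat.card_coe_set_eq, hN]
  · intro b
    rw [← SimpleGraph.card_neighborFinset_eq_degree, ← card_disjFrom hB hv b.2, disjFrom,
      ← card_subtype_filter (B := B) (fun e => Disjoint e b.1)]
    refine congrArg Finset.card ?_
    ext x
    simp only [SimpleGraph.mem_neighborFinset, Finset.mem_filter, Finset.mem_univ, true_and, hadj,
      disjoint_comm]
  · intro b c h
    rw [hcommon b c h.ne, if_pos ((hadj b c).mp h)]
  · intro b c hbc h
    rw [hcommon b c hbc, if_neg fun hd => h ((hadj b c).mpr hd)]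

/-- Vertices of the point-block graph given by their three parts. -/
noncomputable def vset [Fintype B] (o : Bool) (P : Finset α) (Q : Finset B) :
    Finset (Option (α ⊕ B)) :=
  (Finset.insertNone (P.disjSum Q)).filter fun x => x ≠ none ∨ o = true

omit [Fintype α] in
theorem card_vset [Fintype B] (o : Bool) (P : Finset α) (Q : Finset B) :
    (vset o P Q).card = o.toNat + P.card + Q.card := by
  classical
  cases o
  · rw [vset, Finset.filter_congr (q := fun x => x ≠ none) (by simp), Finset.filter_ne',
      Finset.card_erase_of_mem (Finset.none_mem_insertNone), Finset.card_insertNone,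
      Finset.card_disjSum]
    simp
  · rw [vset, Finset.filter_true_of_mem (by simp), Finset.card_insertNone, Finset.card_disjSum,
      Bool.toNat_true]
    omega

omit [Fintype α] in
theorem mem_vset [Fintype B] {o : Bool} {P : Finset α} {Q : Finset B} {x : Option (α ⊕ B)} :
    x ∈ vset o P Q ↔ (x = none ∧ o = true) ∨ (∃ a ∈ P, x = some (Sum.inl a)) ∨
      ∃ b ∈ Q, x = some (Sum.inr b) := by
  classical
  rcases x with - | (a | b) <;> simp [vset]

/-- The neighbourhoods of the point-block graph. -/
noncomputable def nbr [Fintype B] : Option (α ⊕ B) → Bool × Finset α × Finset B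
  | none => (false, Finset.univ, ∅)
  | some (Sum.inl a) => (true, ∅, Finset.univ.filter fun b : B => a ∈ (b : Finset α))
  | some (Sum.inr b) => (false, (b : Finset α),
      Finset.univ.filter fun c : B => Disjoint (b : Finset α) (c : Finset α))

theorem pointBlock_adj [Fintype B] {k : ℕ} (hk : 0 < k) (hB : ∀ b ∈ B, b.card = k)
    (v w : Option (α ⊕ B)) :
    (Cfsg.pointBlockGraph B).Adj v w ↔ w ∈ vset (nbr v).1 (nbr v).2.1 (nbr v).2.2 := by
  rw [mem_vset, Cfsg.pointBlockGraph, SimpleGraph.fromRel_adj]
  rcases v with - | (a | b) <;> rcases w with - | (a' | b') <;>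
    simp only [Cfsg.pointBlockRel, nbr, ne_eq, Option.some.injEq, Sum.inl.injEq, Sum.inr.injEq,
      reduceCtorEq, not_true_eq_false, not_false_eq_true, Finset.mem_univ, Finset.notMem_empty,
      Finset.mem_filter, false_and, true_and, and_true, and_false, or_false, false_or, or_self,
      exists_false, exists_eq_right', exists_eq', Bool.false_eq_true]
  case some.inr.some.inr =>
    constructor
    · rintro ⟨-, h | h⟩
      exacts [h, h.symm]
    · intro h
      refine ⟨?_, Or.inl h⟩
      intro e
      subst e
      rw [disjoint_self, Finset.bot_eq_empty] at h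
      have := hB _ b.2
      rw [h, Finset.card_empty] at this
      omega

theorem vset_inter [Fintype B] (o o' : Bool) (P P' : Finset α) (Q Q' : Finset B) :
    vset o P Q ∩ vset o' P' Q' = vset (o && o') (P ∩ P') (Q ∩ Q') := by
  classical
  ext x
  rw [Finset.mem_inter, mem_vset, mem_vset, mem_vset]
  rcases x with - | (a | b) <;> simp

/-- The point-block graph of an S(3,6,22) is strongly regular. -/
theorem pointBlockGraph_srg (hB : Cfsg.IsSteinerSystem 3 6 B) (hv : Fintype.card α = 22)
    [Fintype B] [DecidableRel (Cfsg.pointBlockGraph B).Adj] :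
    (Cfsg.pointBlockGraph B).IsSRGWith 100 22 0 6 := by
  classical
  have hN := card_blocks (N := 77) hB hv (by decide) (by decide)
  have hBcard : Fintype.card B = 77 := by rw [← Nat.card_eq_fintype_card, Nat.card_coe_set_eq, hN]
  have hnbr : ∀ v, (Cfsg.pointBlockGraph B).neighborFinset v =
      vset (nbr v).1 (nbr v).2.1 (nbr v).2.2 := by
    intro v
    ext w
    rw [SimpleGraph.mem_neighborFinset, pointBlock_adj (by norm_num) hB.1]
  have hadj := pointBlock_adj (B := B) (by norm_num) hB.1
  have hdeg : ∀ a : α, ((Finset.univ : Finset B).filter fun b : B => a ∈ (b : Finset α)).card = 21 := by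
    intro a; rw [card_subtype_filter (fun e => a ∈ e), card_through_point hB hv a]
  have hdisj : ∀ b : B,
      ((Finset.univ : Finset B).filter fun c : B => Disjoint (b : Finset α) (c : Finset α)).card = 16 := by
    intro b
    rw [card_subtype_filter (fun e => Disjoint (b : Finset α) e), ← card_disjFrom hB hv b.2, disjFrom]
    congr 1
    ext e; simp [disjoint_comm]
  have hval : ∀ v w : Option (α ⊕ B), v ≠ w →
      (vset ((nbr v).1 && (nbr w).1) ((nbr v).2.1 ∩ (nbr w).2.1) ((nbr v).2.2 ∩ (nbr w).2.2)).card =
        if w ∈ vset (nbr v).1 (nbr v).2.1 (nbr v).2.2 then 0 else 6 := by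
    intro v w hvw
    have hpb : ∀ (a : α) (b : B),
        (((Finset.univ : Finset B).filter fun c : B => a ∈ (c : Finset α)) ∩
          ((Finset.univ : Finset B).filter fun c : B => Disjoint (b : Finset α) (c : Finset α))).card =
          if a ∈ (b : Finset α) then 0 else 6 := by
      intro a b
      rw [← Finset.filter_and, card_subtype_filter (fun e => a ∈ e ∧ Disjoint (b : Finset α) e),
        ← card_point_block hB hv b.2 a]
      congr 1
      ext e
      simp [mem_disjFrom, mem_blocks, disjoint_comm]
      tauto
    rcases v with - | (a | b) <;> rcases w with - | (a' | b')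
    · exact absurd rfl hvw
    · simp [nbr, card_vset, mem_vset]
    · simp [nbr, card_vset, mem_vset, hB.1 _ b'.2]
    · simp [nbr, card_vset, mem_vset]
    · have hne : a ≠ a' := fun e => hvw (by rw [e])
      have h5 : (((Finset.univ : Finset B).filter fun c : B => a ∈ (c : Finset α)) ∩
          ((Finset.univ : Finset B).filter fun c : B => a' ∈ (c : Finset α))).card = 5 := by
        rw [← Finset.filter_and, card_subtype_filter (fun e => a ∈ e ∧ a' ∈ e),
          card_through_pair hB hv hne]
      simp [nbr, card_vset, mem_vset, h5]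
    · simp [nbr, card_vset, mem_vset, hpb]
    · simp [nbr, card_vset, mem_vset, hB.1 _ b.2]
    · rw [Finset.inter_comm ((nbr (some (Sum.inr b))).2.2)]
      simp [nbr, card_vset, mem_vset, hpb]
    · have hne : (b : Finset α) ≠ b' := fun e => hvw (by rw [Subtype.ext e])
      have hcc : (((Finset.univ : Finset B).filter fun c : B => Disjoint (b : Finset α) (c : Finset α)) ∩
          ((Finset.univ : Finset B).filter fun c : B => Disjoint (b' : Finset α) (c : Finset α))).card =
          if Disjoint (b : Finset α) b' then 0 else 4 := by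
        rw [← Finset.filter_and,
          card_subtype_filter (fun e => Disjoint (b : Finset α) e ∧ Disjoint (b' : Finset α) e),
          ← card_common hB hv b.2 b'.2 hne]
        congr 1
        ext e
        simp [mem_disjFrom, mem_blocks, disjoint_comm]
        tauto
      by_cases hd : Disjoint (b : Finset α) b'
      · simp [nbr, card_vset, mem_vset, hcc, hd, Finset.disjoint_iff_inter_eq_empty.mp hd]
      · have h2 : ((b : Finset α) ∩ b').card = 2 := by
          rcases inter_3_6_22 hB hv b.2 b'.2 hne with h | h
          · exact absurd (Finset.disjoint_iff_inter_eq_empty.mpr (Finset.card_eq_zero.mp h)) hd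
          · exact h
        simp [nbr, card_vset, mem_vset, hcc, hd, h2]
  have hcommon : ∀ v w : Option (α ⊕ B), v ≠ w →
      Fintype.card ((Cfsg.pointBlockGraph B).commonNeighbors v w) =
        if (Cfsg.pointBlockGraph B).Adj v w then 0 else 6 := by
    intro v w hvw
    have hset : ((Finset.univ : Finset (Option (α ⊕ B))).filter fun x =>
        x ∈ (Cfsg.pointBlockGraph B).commonNeighbors v w) =
        vset ((nbr v).1 && (nbr w).1) ((nbr v).2.1 ∩ (nbr w).2.1) ((nbr v).2.2 ∩ (nbr w).2.2) := by
      rw [← vset_inter, ← hnbr, ← hnbr]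
      ext x
      simp [SimpleGraph.mem_commonNeighbors]
    rw [Fintype.card_subtype, hset, hval v w hvw]
    simp only [hadj]
  refine ⟨?_, ?_, ?_, ?_⟩
  · simp [hv, hBcard]
  · intro v
    rw [← SimpleGraph.card_neighborFinset_eq_degree, hnbr, card_vset]
    rcases v with - | (a | b)
    · simp [nbr, hv]
    · simp [nbr, hdeg a]
    · simp [nbr, hdisj b, hB.1 _ b.2]
  · intro v w h
    rw [hcommon v w h.ne, if_pos h]
  · intro v w hvw h
    rw [hcommon v w hvw, if_neg h]

end Cfsg.Agent.Graphs
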