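import Cfsg.Agent.Graphs.M22Graphs
import Cfsg.Agent.Design.Large

/-!
Strongly regular graphs with parameters (100, 22, 0, 6) are point-block graphs of S(3,6,22).
-/

set_option autoImplicit false

namespace Cfsg.Agent.Graphs

open Cfsg.Agent.SteinerCount Cfsg.Agent.Design

section

variable {α β : Type*} [DecidableEq α] [DecidableEq β] {B : Set (Finset α)} {B' : Set (Finset β)}

/-- An isomorphism of point-block graphs induced by an isomorphism of designs. -/
def pointBlockIso (e : α ≃ β) (h : ∀ b : Finset α, b.map e.toEmbedding ∈ B' ↔ b ∈ B) :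
    Cfsg.pointBlockGraph B ≃g Cfsg.pointBlockGraph B' where
  toEquiv := Equiv.optionCongr (Equiv.sumCongr e
    { toFun := fun b => ⟨(b : Finset α).map e.toEmbedding, (h _).mpr b.2⟩
      invFun := fun c => ⟨(c : Finset β).map e.symm.toEmbedding, by
        rw [← h, Finset.map_map]
        simp⟩
      left_inv := fun b => Subtype.ext (by simp [Finset.map_map])
      right_inv := fun c => Subtype.ext (by simp [Finset.map_map]) })
  map_rel_iff' := by
    intro v w
    rw [Cfsg.pointBlockGraph, Cfsg.pointBlockGraph, SimpleGraph.fromRel_adj, SimpleGraph.fromRel_adj]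
    rw [ne_eq, EmbeddingLike.apply_eq_iff_eq]
    rcases v with - | (a | b) <;> rcases w with - | (a' | b') <;>
      simp [Cfsg.pointBlockRel, Finset.disjoint_map]

theorem pointBlockIso_none (e : α ≃ β) (h : ∀ b : Finset α, b.map e.toEmbedding ∈ B' ↔ b ∈ B) :
    pointBlockIso e h none = none := rfl

/-- Two S(3,6,22) have isomorphic point-block graphs. -/
theorem exists_pointBlockIso [Fintype α] [Fintype β] (hB : Cfsg.IsSteinerSystem 3 6 B)
    (hv : Fintype.card α = 22) (hB' : Cfsg.IsSteinerSystem 3 6 B') (hv' : Fintype.card β = 22) :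
    ∃ φ : Cfsg.pointBlockGraph B ≃g Cfsg.pointBlockGraph B', φ none = none := by
  obtain ⟨e, he⟩ := exists_iso22 hB hv
  obtain ⟨e', he'⟩ := exists_iso22 hB' hv'
  refine ⟨pointBlockIso (e.symm.trans e') ?_, pointBlockIso_none _ _⟩
  intro b
  have h1 : b.map (e.symm.trans e').toEmbedding =
      (b.map e.symm.toEmbedding).map e'.toEmbedding := by
    rw [Finset.map_map]; rfl
  rw [h1, he', ← he, map_pull]

end

variable {V : Type*} [Fintype V] [DecidableEq V] {G : SimpleGraph V} [DecidableRel G.Adj]

/-- A multiple of the projection to the eigenspace for the eigenvalue -8. -/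
def proj (G : SimpleGraph V) [DecidableRel G.Adj] (x y : V) : ℤ :=
  if x = y then 11 else if G.Adj x y then -4 else 1

theorem proj_comm (x y : V) : proj G x y = proj G y x := by
  unfold proj
  simp only [eq_comm (a := x), G.adj_comm x y]

theorem common_card (hG : G.IsSRGWith 100 22 0 6) (x y : V) :
    ((Finset.univ : Finset V).filter fun z => G.Adj x z ∧ G.Adj y z).card =
      if x = y then 22 else if G.Adj x y then 0 else 6 := by
  split_ifs with h h'
  · subst h
    rw [← hG.regular x, ← SimpleGraph.card_neighborFinset_eq_degree]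
    congr 1
    ext z; simp
  · rw [← hG.of_adj x y h', Fintype.card_subtype]
    congr 1
  · rw [← hG.of_not_adj h h', Fintype.card_subtype]
    congr 1

theorem proj_sq (hG : G.IsSRGWith 100 22 0 6) (x y : V) :
    ∑ z, proj G x z * proj G z y = 50 * proj G x y := by
  have hform : ∀ u w : V, proj G u w =
      10 * (if u = w then 1 else 0) - 5 * (if G.Adj u w then 1 else 0) + 1 := by
    intro u w
    unfold proj
    split_ifs with h h'
    · subst h; simp at h'
    · norm_num
    · norm_num
    · norm_num
  have hdeg : ∀ u : V, ∑ z, (if G.Adj u z then 1 else 0 : ℤ) = 22 := by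
    intro u
    rw [Finset.sum_boole, ← SimpleGraph.neighborFinset_eq_filter,
      SimpleGraph.card_neighborFinset_eq_degree, hG.regular u]
    rfl
  have hsym : ∀ u w : V, (if G.Adj u w then 1 else 0 : ℤ) = if G.Adj w u then 1 else 0 := by
    intro u w
    by_cases h : G.Adj u w <;> simp [h, G.adj_comm w u]
  have hcom : ∑ z, (if G.Adj x z then 1 else 0 : ℤ) * (if G.Adj z y then 1 else 0) =
      ((if x = y then 22 else if G.Adj x y then 0 else 6 : ℕ) : ℤ) := by
    rw [← common_card hG x y, Finset.natCast_card_filter]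
    refine Finset.sum_congr rfl fun z _ => ?_
    rw [ite_and]
    by_cases h : G.Adj x z <;> by_cases h2 : G.Adj y z <;> simp [h, h2, G.adj_comm z y]
  have hexp : ∀ z, proj G x z * proj G z y =
      100 * ((if x = z then 1 else 0 : ℤ) * (if z = y then 1 else 0))
      - 50 * ((if x = z then 1 else 0 : ℤ) * (if G.Adj z y then 1 else 0))
      + 10 * (if x = z then 1 else 0 : ℤ)
      - 50 * ((if G.Adj x z then 1 else 0 : ℤ) * (if z = y then 1 else 0))
      + 25 * ((if G.Adj x z then 1 else 0 : ℤ) * (if G.Adj z y then 1 else 0))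
      - 5 * (if G.Adj x z then 1 else 0 : ℤ)
      + 10 * (if z = y then 1 else 0 : ℤ)
      - 5 * (if G.Adj y z then 1 else 0 : ℤ) + 1 := by
    intro z
    rw [hform, hform, hsym y z]
    ring
  rw [Finset.sum_congr rfl fun z _ => hexp z]
  have hl : ∀ g : V → ℤ, ∑ z, (if x = z then 1 else 0 : ℤ) * g z = g x := fun g => by simp
  have hr : ∀ g : V → ℤ, ∑ z, g z * (if z = y then 1 else 0 : ℤ) = g y := fun g => by simp
  simp only [Finset.sum_add_distrib, Finset.sum_sub_distrib, ← Finset.mul_sum, hdeg, hcom, hl, hr,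
    Finset.sum_const, Finset.card_univ, hG.card]
  simp only [ite_mul, one_mul, zero_mul, mul_ite, mul_one, mul_zero, Finset.sum_ite_eq,
    Finset.sum_ite_eq', Finset.mem_univ, if_true]
  unfold proj
  by_cases h : x = y
  · subst h; simp
  · by_cases h' : G.Adj x y <;> simp [h, h']

/-- A vector killed on its support is killed everywhere. -/
theorem proj_kill (hG : G.IsSRGWith 100 22 0 6) (W : V → ℤ)
    (h : ∀ x, W x ≠ 0 → ∑ z, proj G x z * W z = 0) (x : V) : ∑ z, proj G x z * W z = 0 := by
  have hsum : ∑ x, (∑ z, proj G x z * W z) ^ 2 = 50 * ∑ u, W u * ∑ z, proj G u z * W z := by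
    calc ∑ x, (∑ z, proj G x z * W z) ^ 2
        = ∑ x, ∑ u, ∑ z, W u * W z * (proj G u x * proj G x z) := by
          refine Finset.sum_congr rfl fun x _ => ?_
          rw [pow_two, Finset.sum_mul_sum]
          refine Finset.sum_congr rfl fun u _ => Finset.sum_congr rfl fun z _ => ?_
          rw [proj_comm x u]
          ring
      _ = ∑ u, ∑ z, W u * W z * ∑ x, proj G u x * proj G x z := by
          rw [Finset.sum_comm]
          refine Finset.sum_congr rfl fun u _ => ?_
          rw [Finset.sum_comm]
          refine Finset.sum_congr rfl fun z _ => ?_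
          rw [Finset.mul_sum]
      _ = 50 * ∑ u, W u * ∑ z, proj G u z * W z := by
          rw [Finset.mul_sum]
          refine Finset.sum_congr rfl fun u _ => ?_
          rw [Finset.mul_sum, Finset.mul_sum]
          refine Finset.sum_congr rfl fun z _ => ?_
          rw [proj_sq hG]
          ring
  have hz : ∑ u, W u * ∑ z, proj G u z * W z = 0 := by
    refine Finset.sum_eq_zero fun u _ => ?_
    by_cases hu : W u = 0
    · rw [hu, zero_mul]
    · rw [h u hu, mul_zero]
  rw [hz, mul_zero] at hsum
  have := (Finset.sum_eq_zero_iff_of_nonneg fun x _ => sq_nonneg _).mp hsum x (Finset.mem_univ x)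
  exact pow_eq_zero_iff two_ne_zero |>.mp this

/-- Two blocks seen from a vertex meet in 0 or 2 points. -/
theorem inter_two (hG : G.IsSRGWith 100 22 0 6) {v b c : V} (hb : b ≠ v) (hb' : ¬ G.Adj v b)
    (hc : c ≠ v) (hc' : ¬ G.Adj v c) (hbc : b ≠ c) :
    ((Finset.univ : Finset V).filter fun i => G.Adj v i ∧ G.Adj b i ∧ G.Adj c i).card =
      if G.Adj b c then 0 else 2 := by
  let N : Finset V := G.neighborFinset v
  have hN : N.card = 22 := by rw [SimpleGraph.card_neighborFinset_eq_degree, hG.regular v]
  let κ : V → ℤ := fun i => if G.Adj b i then -3 else 1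
  have hPb : (N.filter fun i => G.Adj b i).card = 6 := by
    rw [← hG.of_not_adj (Ne.symm hb) hb', Fintype.card_subtype]
    congr 1
    ext i
    simp [N, SimpleGraph.mem_commonNeighbors]
  have hPc : (N.filter fun i => G.Adj c i).card = 6 := by
    rw [← hG.of_not_adj (Ne.symm hc) hc', Fintype.card_subtype]
    congr 1
    ext i
    simp [N, SimpleGraph.mem_commonNeighbors]
  let W : V → ℤ := fun z => (if z = b then 8 else 0) - (if z ∈ N then κ z else 0)
  have hbN : b ∉ N := by simp [N, hb']
  have hcN : c ∉ N := by simp [N, hc']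
  have hEW : ∀ x, ∑ z, proj G x z * W z = 8 * proj G x b - ∑ i ∈ N, proj G x i * κ i := by
    intro x
    simp only [W, mul_sub, Finset.sum_sub_distrib, mul_ite, mul_zero, Finset.sum_ite_eq',
      Finset.mem_univ, if_true, Finset.sum_ite_mem, Finset.univ_inter]
    ring
  have hκsum : ∑ i ∈ N, κ i = -2 := by
    rw [Finset.sum_ite, Finset.sum_const, Finset.sum_const]
    have := Finset.card_filter_add_card_filter_not (s := N) (fun i => G.Adj b i)
    rw [hPb, hN] at this
    rw [hPb, show (N.filter fun i => ¬ G.Adj b i).card = 16 by omega]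
    norm_num
  have hind : ∀ i ∈ N, ∀ j ∈ N, i ≠ j → proj G i j = 1 := by
    intro i hi j hj hij
    have hna : ¬ G.Adj i j := by
      intro h
      simp only [N, SimpleGraph.mem_neighborFinset] at hi hj
      have h0 := common_card hG v i
      rw [if_neg hi.ne, if_pos hi, Finset.card_eq_zero] at h0
      have : j ∈ ((Finset.univ : Finset V).filter fun z => G.Adj v z ∧ G.Adj i z) := by simp [hj, h]
      rw [h0] at this
      simp at this
    simp [proj, hij, hna]
  have hblock : ∀ x, x ∉ N →
      ∑ i ∈ N, proj G x i * κ i = -2 - 5 * ∑ i ∈ N.filter (fun i => G.Adj x i), κ i := by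
    intro x hx
    rw [Finset.sum_filter, Finset.mul_sum, ← hκsum, ← Finset.sum_sub_distrib]
    refine Finset.sum_congr rfl fun i hi => ?_
    have hne : x ≠ i := fun h => hx (h ▸ hi)
    by_cases h : G.Adj x i <;> simp [proj, hne, h] <;> ring
  have hsupp : ∀ x, W x ≠ 0 → ∑ z, proj G x z * W z = 0 := by
    intro x hx
    rw [hEW]
    by_cases hxN : x ∈ N
    · have hxb : x ≠ b := fun h => hbN (h ▸ hxN)
      rw [← Finset.add_sum_erase _ _ hxN,
        Finset.sum_congr rfl (g := κ) (fun i hi => by
          rw [hind x hxN i (Finset.mem_of_mem_erase hi) (Finset.ne_of_mem_erase hi).symm, one_mul])]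
      have h1 := Finset.add_sum_erase _ κ hxN
      rw [hκsum] at h1
      have h2 : proj G x x = 11 := by simp [proj]
      rw [h2]
      by_cases h : G.Adj b x
      · have h3 : κ x = -3 := if_pos h
        have h4 : proj G x b = -4 := by simp [proj, hxb, h.symm]
        rw [h4]; rw [h3] at h1 ⊢; linarith
      · have h3 : κ x = 1 := if_neg h
        have h4 : proj G x b = 1 := by simp [proj, hxb, G.adj_comm x b, h]
        rw [h4]; rw [h3] at h1 ⊢; linarith
    · have hxb : x = b := by
        by_contra hne
        exact hx (by simp [W, hne, hxN])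
      subst hxb
      rw [hblock x hxN, Finset.sum_congr rfl (g := fun _ => (-3 : ℤ))
        (fun i hi => if_pos (Finset.mem_filter.mp hi).2), Finset.sum_const, hPb]
      simp [proj]
  have hc0 := proj_kill hG W hsupp c
  rw [hEW, hblock c hcN, Finset.sum_ite, Finset.sum_const, Finset.sum_const, Finset.filter_filter,
    Finset.filter_filter] at hc0
  have h6 := Finset.card_filter_add_card_filter_not (s := N.filter fun i => G.Adj c i)
    (fun i => G.Adj b i)
  rw [Finset.filter_filter, Finset.filter_filter, hPc] at h6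
  have hset : ((Finset.univ : Finset V).filter fun i => G.Adj v i ∧ G.Adj b i ∧ G.Adj c i) =
      N.filter fun i => G.Adj c i ∧ G.Adj b i := by
    ext i
    simp [N, and_comm]
  rw [hset]
  split_ifs with hadj
  · have hp : proj G c b = -4 := by simp [proj, Ne.symm hbc, hadj.symm]
    rw [hp] at hc0
    simp only [nsmul_eq_mul, mul_neg] at hc0
    omega
  · have hp : proj G c b = 1 := by simp [proj, Ne.symm hbc, G.adj_comm c b, hadj]
    rw [hp] at hc0
    simp only [nsmul_eq_mul, mul_neg] at hc0
    omega

/-- The blocks seen from a vertex. -/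
def blocksAt (G : SimpleGraph V) [DecidableRel G.Adj] (v : V) :
    Set (Finset {x : V // G.Adj v x}) :=
  Set.range fun b : {b : V // b ≠ v ∧ ¬ G.Adj v b} =>
    (Finset.univ : Finset {x : V // G.Adj v x}).filter fun i => G.Adj b.1 i.1

/-- Reconstruction of the design from any vertex. -/
theorem reconstruct (hG : G.IsSRGWith 100 22 0 6) (v : V) :
    Cfsg.IsSteinerSystem 3 6 (blocksAt G v) ∧ Fintype.card {x : V // G.Adj v x} = 22 ∧
      ∃ φ : Cfsg.pointBlockGraph (blocksAt G v) ≃g G, φ none = v := by
  classical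
  have hP : Fintype.card {x : V // G.Adj v x} = 22 := by
    rw [← hG.regular v, ← SimpleGraph.card_neighborFinset_eq_degree, Fintype.card_subtype]
    congr 1
    ext z; simp
  let f : {b : V // b ≠ v ∧ ¬ G.Adj v b} → Finset {x : V // G.Adj v x} := fun b =>
    Finset.univ.filter fun i => G.Adj b.1 i.1
  have hf6 : ∀ b, (f b).card = 6 := by
    intro b
    rw [← hG.of_not_adj (Ne.symm b.2.1) b.2.2, Fintype.card_subtype,
      ← Finset.card_map (Function.Embedding.subtype fun x => G.Adj v x)]
    congr 1
    ext i
    simp [f, SimpleGraph.mem_commonNeighbors, and_comm]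
  have hmeet : ∀ b c, b ≠ c → (f b ∩ f c).card = if G.Adj b.1 c.1 then 0 else 2 := by
    intro b c hbc
    rw [← inter_two hG b.2.1 b.2.2 c.2.1 c.2.2 (fun h => hbc (Subtype.ext h)),
      ← Finset.card_map (Function.Embedding.subtype fun x => G.Adj v x)]
    congr 1
    ext i
    simp [f, and_comm, and_left_comm]
  have hfinj : Function.Injective f := by
    intro b c h
    by_contra hne
    have := hmeet b c hne
    rw [h, Finset.inter_self, hf6] at this
    split_ifs at this <;> omega
  have huniq : ∀ (s : Finset {x : V // G.Adj v x}), s.card = 3 → ∀ b c, s ⊆ f b → s ⊆ f c → b = c := by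
    intro s hs b c hb hc
    by_contra hne
    have h1 := hmeet b c hne
    have h2 := Finset.card_le_card (Finset.subset_inter hb hc)
    split_ifs at h1 <;> omega
  have hcount : Fintype.card {b : V // b ≠ v ∧ ¬ G.Adj v b} = 77 := by
    rw [Fintype.card_subtype]
    have h1 : ((Finset.univ : Finset V).filter fun b => b ≠ v ∧ ¬ G.Adj v b) =
        Finset.univ \ (insert v (G.neighborFinset v)) := by ext b; simp
    rw [h1, Finset.card_sdiff_of_subset (Finset.subset_univ _), Finset.card_univ, hG.card,
      Finset.card_insert_of_notMem (by simp), SimpleGraph.card_neighborFinset_eq_degree, hG.regular v]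
  have hblocks : blocksAt G v = Set.range f := rfl
  have hsteiner : Cfsg.IsSteinerSystem 3 6 (blocksAt G v) := by
    rw [hblocks]
    refine ⟨?_, ?_⟩
    · rintro _ ⟨b, rfl⟩
      exact hf6 b
    · intro s hs
      have hcover : (Finset.univ.biUnion fun b => (f b).powersetCard 3) =
          (Finset.univ : Finset {x : V // G.Adj v x}).powersetCard 3 := by
        refine Finset.eq_of_subset_of_card_le ?_ ?_
        · intro t ht
          simp only [Finset.mem_biUnion, Finset.mem_univ, true_and, Finset.mem_powersetCard] at ht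
          obtain ⟨b, -, hb⟩ := ht
          simp [hb]
        · rw [Finset.card_biUnion, Finset.sum_congr rfl fun b _ => by
            rw [Finset.card_powersetCard, hf6 b]]
          · rw [Finset.card_powersetCard, Finset.card_univ, hP, Finset.sum_const, Finset.card_univ,
              hcount]
            decide
          · intro b _ c _ hbc
            rw [Function.onFun, Finset.disjoint_left]
            intro t htb htc
            rw [Finset.mem_powersetCard] at htb htc
            exact hbc (huniq t htb.2 b c htb.1 htc.1)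
      have hmem : s ∈ (Finset.univ : Finset {x : V // G.Adj v x}).powersetCard 3 := by simp [hs]
      rw [← hcover, Finset.mem_biUnion] at hmem
      obtain ⟨b, -, hb⟩ := hmem
      rw [Finset.mem_powersetCard] at hb
      refine ⟨f b, ⟨⟨b, rfl⟩, hb.1⟩, ?_⟩
      rintro _ ⟨⟨c, rfl⟩, hc⟩
      rw [huniq s hs c b hc hb.1]
  refine ⟨hsteiner, hP, ?_⟩
  let g : Option ({x : V // G.Adj v x} ⊕ blocksAt G v) → V := fun x =>
    match x with
    | none => v
    | some (Sum.inl i) => i.1
    | some (Sum.inr b) => (Classical.choose (Set.mem_range.mp b.2)).1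
  have hg : ∀ b : {b : V // b ≠ v ∧ ¬ G.Adj v b}, g (some (Sum.inr ⟨f b, ⟨b, rfl⟩⟩)) = b.1 := by
    intro b
    have h := Classical.choose_spec (Set.mem_range.mp (⟨b, rfl⟩ : f b ∈ blocksAt G v))
    exact congrArg Subtype.val (hfinj h)
  have hsurj : Function.Surjective g := by
    intro x
    by_cases hx : x = v
    · exact ⟨none, hx.symm⟩
    by_cases hx' : G.Adj v x
    · exact ⟨some (Sum.inl ⟨x, hx'⟩), rfl⟩
    · exact ⟨some (Sum.inr ⟨f ⟨x, hx, hx'⟩, ⟨x, hx, hx'⟩, rfl⟩), hg ⟨x, hx, hx'⟩⟩
  have hbij : Function.Bijective g := by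
    rw [Fintype.bijective_iff_surjective_and_card]
    refine ⟨hsurj, ?_⟩
    rw [Fintype.card_option, Fintype.card_sum, hP, hG.card]
    have := Fintype.card_congr (Equiv.ofInjective f hfinj)
    rw [hcount] at this
    simp only [← hblocks, Fintype.card_eq_nat_card] at this ⊢
    omega
  refine ⟨⟨Equiv.ofBijective g hbij, ?_⟩, rfl⟩
  intro x y
  show G.Adj (g x) (g y) ↔ _
  have hcase : ∀ z : Option ({x : V // G.Adj v x} ⊕ blocksAt G v),
      z = none ∨ (∃ i, z = some (Sum.inl i)) ∨ ∃ b, z = some (Sum.inr ⟨f b, ⟨b, rfl⟩⟩) := by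
    rintro (- | (i | ⟨_, b, rfl⟩))
    exacts [Or.inl rfl, Or.inr (Or.inl ⟨i, rfl⟩), Or.inr (Or.inr ⟨b, rfl⟩)]
  rw [Cfsg.pointBlockGraph, SimpleGraph.fromRel_adj]
  have hpp : ∀ i j : {x : V // G.Adj v x}, ¬ G.Adj i.1 j.1 := by
    intro i j h
    have h0 := common_card hG v i.1
    rw [if_neg i.2.ne, if_pos i.2, Finset.card_eq_zero] at h0
    have : j.1 ∈ ((Finset.univ : Finset V).filter fun z => G.Adj v z ∧ G.Adj i.1 z) := by
      simp [j.2, h]
    rw [h0] at this
    simp at this
  rcases hcase x with rfl | ⟨i, rfl⟩ | ⟨b, rfl⟩ <;> rcases hcase y with rfl | ⟨j, rfl⟩ | ⟨c, rfl⟩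
  all_goals try simp only [hg]
  · simp [g, Cfsg.pointBlockRel]
  · simp [g, Cfsg.pointBlockRel, j.2]
  · simp [g, Cfsg.pointBlockRel, c.2.2]
  · simp [g, Cfsg.pointBlockRel, i.2.symm]
  · simp [g, Cfsg.pointBlockRel, hpp]
  · simp [g, Cfsg.pointBlockRel, f, G.adj_comm i.1]
  · simp [g, Cfsg.pointBlockRel, G.adj_comm b.1 v, b.2.2]
  · simp [g, Cfsg.pointBlockRel, f]
  · simp only [Cfsg.pointBlockRel, ne_eq, Option.some.injEq, Sum.inr.injEq, Subtype.mk.injEq]
    constructor
    · intro h
      have hne : b ≠ c := fun e => G.irrefl (e ▸ h : G.Adj c.1 c.1)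
      refine ⟨fun e => hne (hfinj (congrArg Subtype.val e)), Or.inl ?_⟩
      have := hmeet b c hne
      rw [if_pos h, Finset.card_eq_zero] at this
      exact Finset.disjoint_iff_inter_eq_empty.mpr this
    · rintro ⟨hne, h⟩
      have hne' : b ≠ c := fun e => hne (by subst e; rfl)
      by_contra hna
      have := hmeet b c hne'
      rw [if_neg hna] at this
      have hd : f b ∩ f c = ∅ :=
        Finset.disjoint_iff_inter_eq_empty.mp (h.elim id fun h => h.symm)
      rw [hd, Finset.card_empty] at this
      omega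

end Cfsg.Agent.Graphs
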